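import Mathlib
import Cfsg.Agent.Lib.RGD.Levi
import Cfsg.Agent.Lib.Stein.Abs

/-!
# Hecke operators and weight vectors (Curtis–Richen theory), part 1

`T S ρ i = ∑_t ρ (x_i(t) n_i)` and `Tw S ρ w n = ∑_{u ∈ U_w} ρ (u n)` act on a representation `ρ` of a finite
group with a system of root elements, in the defining characteristic.
A weight is a function `ω : κ → Option (Fˣ →* kˣ)`; `IsWt S ρ ω m` says that `m` is fixed by `U`, that
`h_i(t)` acts by the character `chi (ω i)` and `T_i` by `cc (ω i)` (`-1` if `ω i = none`, else `0`).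
-/

set_option autoImplicit false

namespace CfsgLib.CR

open CfsgLib.RGD

variable {ι κ : Type} [Fintype κ] [DecidableEq κ] {Φ : RootSys ι κ} {F : Type*} [Field F]
  {G : Type*} [Group G] (S : StSys Φ F G) {k : Type*} [Field k] {V : Type*} [AddCommGroup V]
  [Module k V] (ρ : Representation k G V)

/-- the operator `T_i` -/
noncomputable def T [Fintype F] (i : κ) : Module.End k V :=
  ∑ t : F, ρ (S.x (Φ.simple i) t * S.n (Φ.simple i) 1)

open Classical in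
/-- the operator `T_w` -/
noncomputable def Tw [Fintype G] (w : Equiv.Perm ι) (n : G) : Module.End k V :=
  ∑ u ∈ Finset.univ.filter (· ∈ S.UU (Φ.Inv w⁻¹)), ρ (u * n)

/-- `m` spans a `B`-stable subspace -/
def IsB (m : V) : Prop := (∀ u ∈ S.U, ρ u m = m) ∧ ∀ a ∈ S.H, ∃ c : k, ρ a m = c • m

/-- the character part of a weight -/
def chi (o : Option (Fˣ →* kˣ)) : Fˣ →* kˣ := o.getD 1

/-- the eigenvalue of `T_i` -/
def cc (o : Option (Fˣ →* kˣ)) : k := o.elim (-1) fun _ => 0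

/-- weight vectors -/
structure IsWt [Fintype F] (ω : κ → Option (Fˣ →* kˣ)) (m : V) : Prop where
  fix : ∀ u ∈ S.U, ρ u m = m
  tor : ∀ i (t : Fˣ), ρ (S.h (Φ.simple i) t) m = (chi (ω i) t : k) • m
  hecke : ∀ i, T S ρ i m = cc (ω i) • m

theorem rho_mul (a b : G) (v : V) : ρ (a * b) v = ρ a (ρ b v) := by rw [map_mul]; rfl

variable [Fintype F]

theorem T_apply (i : κ) (v : V) :
    T S ρ i v = ∑ t : F, ρ (S.x (Φ.simple i) t * S.n (Φ.simple i) 1) v := by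
  rw [T, LinearMap.sum_apply]

variable {S ρ}

theorem IsWt.isB {ω : κ → Option (Fˣ →* kˣ)} {m : V} (h : IsWt S ρ ω m) : IsB S ρ m := by
  refine ⟨h.fix, fun a ha => ?_⟩
  rw [Stein.H_eq_Hs] at ha
  induction ha using Subgroup.closure_induction with
  | mem x hx =>
    obtain ⟨i, c, hc, rfl⟩ := hx
    exact ⟨_, h.tor i (Units.mk0 c hc)⟩
  | one => exact ⟨1, by simp⟩
  | mul x y _ _ hx hy =>
    obtain ⟨c, hc⟩ := hx
    obtain ⟨d, hd⟩ := hy
    exact ⟨d * c, by rw [rho_mul, hd, map_smul, hc, smul_smul]⟩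
  | inv x _ hx =>
    obtain ⟨c, hc⟩ := hx
    by_cases h0 : c = 0
    · have : m = 0 := by
        rw [h0, zero_smul] at hc
        rw [← ρ.inv_self_apply x m, hc, map_zero]
      exact ⟨0, by simp [this]⟩
    · refine ⟨c⁻¹, ?_⟩
      conv_rhs => rw [← ρ.inv_self_apply x m, hc, map_smul, smul_smul, inv_mul_cancel₀ h0, one_smul]

theorem rho_H_T {a : G} (ha : a ∈ S.H) (i : κ) (v : V) :
    ρ a (T S ρ i v) = ∑ t : F, ρ (S.x (Φ.simple i) t * a * S.n (Φ.simple i) 1) v := by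
  obtain ⟨l, hl, e⟩ := (S.acts_of_mem_H ha).exists_conj_x (Φ.simple i)
  rw [T_apply, map_sum]
  refine Fintype.sum_equiv (Equiv.mulLeft₀ l hl) _ _ fun t => ?_
  have := e t
  simp only [Equiv.Perm.coe_one, id_eq] at this
  rw [← rho_mul, Equiv.mulLeft₀_apply, ← this]
  congr 2; group

theorem T_fix [Finite ι] {v : V} (hv : ∀ u ∈ S.U, ρ u v = v) (i : κ) :
    ∀ u ∈ S.U, ρ u (T S ρ i v) = T S ρ i v := by
  intro u hu
  obtain ⟨c, y, hy, rfl⟩ := S.exists_x_mul Φ.closed_pos (fun _ h => h) (Φ.simple i) hu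
  have h1 : ρ y (T S ρ i v) = T S ρ i v := by
    rw [T_apply, map_sum]
    refine Finset.sum_congr rfl fun t _ => ?_
    have h2 : (S.x (Φ.simple i) t)⁻¹ * y * S.x (Φ.simple i) t ∈
        S.UU ({r | Φ.Pos r} \ {Φ.simple i}) := by
      refine S.inv_conj_mem_UU (Ψ := {r | Φ.Pos r}) ?_ (S.x_mem_UU (Φ.pos_simple i) t) hy
      intro r hr s hs
      exact ⟨Φ.ne_neg_of_pos hr hs.1, fun k hk => ⟨hk.pos hr hs.1, hk.ne_simple hr hs.1 i⟩⟩
    have h3 := S.n_conj_mem_U_diff i (c := -1) (by simp) h2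
    rw [S.n_neg, inv_inv] at h3
    have h4 := hv _ (S.UU_mono Set.sdiff_subset h3)
    conv_rhs => rw [← h4]
    rw [← rho_mul, ← rho_mul]
    congr 2; group
  rw [rho_mul, h1, T_apply, map_sum]
  refine Fintype.sum_equiv (Equiv.addLeft c) _ _ fun t => ?_
  rw [← rho_mul, Equiv.coe_addLeft, S.x_add, mul_assoc]

theorem IsB.T [Finite ι] {v : V} (hv : IsB S ρ v) (i : κ) : IsB S ρ (T S ρ i v) := by
  refine ⟨T_fix hv.1 i, fun a ha => ?_⟩
  obtain ⟨c, hc⟩ := hv.2 _ (S.N_inv_conj_mem_H (S.n_one_mem_N (Φ.simple i)) ha)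
  refine ⟨c, ?_⟩
  rw [rho_H_T ha, ← map_smul, ← hc, T_apply]
  refine Finset.sum_congr rfl fun t _ => ?_
  rw [← rho_mul]
  congr 2; group

omit [Fintype F] in
theorem IsB.rho_H {v : V} (hv : IsB S ρ v) {a : G} (ha : a ∈ S.H) : IsB S ρ (ρ a v) := by
  obtain ⟨c, hc⟩ := hv.2 a ha
  rw [hc]
  refine ⟨fun u hu => by rw [map_smul, hv.1 u hu], fun b hb => ?_⟩
  obtain ⟨d, hd⟩ := hv.2 b hb
  exact ⟨d, by rw [map_smul, hd, smul_comm]⟩

/-- the quadratic relation -/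
theorem T_T (hq : (Fintype.card F : k) = 0) {v : V} (hv : IsB S ρ v) (i : κ) (ψ : Fˣ →* kˣ)
    (hψ : ∀ t : Fˣ, ρ (S.h (Φ.simple i) t) (T S ρ i v) = (ψ t : k) • T S ρ i v)
    [Decidable (ψ = 1)] :
    T S ρ i (T S ρ i v) = (if ψ = 1 then (-1 : k) else 0) • T S ρ i v := by
  classical
  set n := S.n (Φ.simple i) 1 with hn
  set m := T S ρ i v with hm
  have hnn : n * n ∈ S.H := S.n_sq_mem_H _
  obtain ⟨e, he⟩ := hv.2 _ hnn
  obtain ⟨l, hl, hconj⟩ := (S.acts_n_simple i one_ne_zero).exists_conj_x (Φ.simple i)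
  rw [Φ.s_simple, ← hn] at hconj
  have hem : ρ (n * n) m = e • m := by
    rw [hm, rho_H_T hnn, ← map_smul, ← he, T_apply]
    refine Finset.sum_congr rfl fun t _ => ?_
    rw [← rho_mul, ← hn]
    congr 2; group
  have h1 : T S ρ i m = ∑ t : F, ∑ s : F, ρ (S.x (Φ.simple i) s * n * (S.x (Φ.simple i) t * n)) v := by
    rw [T_apply, Finset.sum_comm]
    refine Finset.sum_congr rfl fun s _ => ?_
    rw [hm, T_apply, map_sum]
    exact Finset.sum_congr rfl fun t _ => by rw [← rho_mul]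
  have h2 : ∑ s : F, ρ (S.x (Φ.simple i) s * n * (S.x (Φ.simple i) 0 * n)) v = 0 := by
    rw [Finset.sum_congr rfl (g := fun _ => e • v), Finset.sum_const, Finset.card_univ,
      ← Nat.cast_smul_eq_nsmul k, hq, zero_smul]
    intro s _
    rw [S.x_zero, one_mul, mul_assoc, rho_mul, he, map_smul, hv.1 _ (S.x_mem_U (Φ.pos_simple i) s)]
  have h3 : ∀ t : Fˣ, ∑ s : F, ρ (S.x (Φ.simple i) s * n * (S.x (Φ.simple i) t * n)) v
      = (ψ (-(Units.mk0 l hl * t)⁻¹) : k) • e • m := by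
    intro t
    have ha : l * t ≠ 0 := mul_ne_zero hl t.ne_zero
    have h4 := S.x_neg_root_eq (Φ.simple i) ha
    rw [← hconj, S.n_eq _ (-(l * t)⁻¹), ← hn] at h4
    have h5 : ((-(Units.mk0 l hl * t)⁻¹ : Fˣ) : F) = -(l * t)⁻¹ := by simp
    rw [smul_comm, ← hψ, rho_H_T (S.h_mem_H _ (Units.ne_zero _)), Finset.smul_sum, h5]
    refine Fintype.sum_equiv (Equiv.addRight (l * t)⁻¹) _ _ fun s => ?_
    have h6 : ρ (S.x (Φ.simple i) (l * t)⁻¹ * (n * n)) v = e • v := by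
      rw [rho_mul, he, map_smul, hv.1 _ (S.x_mem_U (Φ.pos_simple i) _)]
    rw [← map_smul, ← h6, ← rho_mul, Equiv.coe_addRight, S.x_add]
    congr 2
    calc _ = S.x (Φ.simple i) s * (n * S.x (Φ.simple i) t * n⁻¹) * (n * n) := by group
      _ = _ := by rw [h4, ← hn]; simp only [mul_assoc]
  have h4 : ∑ t : Fˣ, (ψ (-(Units.mk0 l hl * t)⁻¹) : k) = ∑ t : Fˣ, (ψ t : k) :=
    Fintype.sum_equiv (((Equiv.mulLeft (Units.mk0 l hl)).trans (Equiv.inv _)).trans (Equiv.neg _))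
      _ _ fun _ => rfl
  rw [h1, Fintype.sum_eq_add_sum_subtype_ne _ (0 : F), h2, zero_add,
    ← Equiv.sum_comp (unitsEquivNeZero (G₀ := F))]
  refine (Finset.sum_congr rfl fun t _ => h3 t).trans ?_
  rw [← Finset.sum_smul, h4]
  split_ifs with h
  · have h5 : ρ (n * n) m = m := by
      have h6 := hψ (-1)
      rw [h, Units.val_neg, Units.val_one, S.h_neg_one, ← hn, MonoidHom.one_apply, Units.val_one,
        one_smul] at h6
      conv_lhs => rw [← h6]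
      exact ρ.self_inv_apply _ _
    rw [← hem, h5, h]
    simp only [MonoidHom.one_apply, Units.val_one, Finset.sum_const, Finset.card_univ,
      Fintype.card_units, nsmul_eq_mul, mul_one]
    rw [Nat.cast_sub Fintype.card_pos, hq, Nat.cast_one, zero_sub]
  · rw [show ∑ t : Fˣ, (ψ t : k) = 0 from sum_hom_units_eq_zero ((Units.coeHom k).comp ψ)
      fun e => h (MonoidHom.ext fun t => Units.ext (DFunLike.congr_fun e t)), zero_smul, zero_smul]

variable [Fintype G] [Finite ι]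

omit [Fintype F] [Finite ι] in
theorem Tw_one (n : G) : Tw S ρ 1 n = ρ n := by
  classical
  rw [Tw, Finset.sum_eq_single 1, one_mul]
  · intro u hu h1
    rw [Finset.mem_filter, inv_one, Φ.Inv_one, S.UU_empty] at hu
    exact absurd hu.2 h1
  · intro h
    exact absurd (Finset.mem_filter.2 ⟨Finset.mem_univ _, one_mem _⟩) h

theorem T_mul_Tw (hS : S.Nondeg) {w : Equiv.Perm ι} (hw : w ∈ Φ.W) {i : κ}
    (hp : Φ.Pos (w⁻¹ (Φ.simple i))) (n : G) :
    T S ρ i * Tw S ρ w n = Tw S ρ (Φ.s i * w) (S.n (Φ.simple i) 1 * n) := by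
  classical
  have hI : Φ.Inv (Φ.s i * w)⁻¹ = insert (Φ.simple i) (Φ.s i '' Φ.Inv w⁻¹) := by
    rw [mul_inv_rev, Φ.s_inv]; exact Φ.Inv_mul_s (inv_mem hw) hp
  have hA := S.acts_n_simple i (one_ne_zero (α := F))
  have hc : Φ.Closed (Φ.s i '' Φ.Inv w⁻¹) :=
    StSys.closed_image (Φ.closed_Inv (inv_mem hw)) (Φ.s_mem_W i)
  have hpos : ∀ r ∈ Φ.s i '' Φ.Inv w⁻¹, Φ.Pos r := fun r hr =>
    (show r ∈ Φ.Inv (Φ.s i * w)⁻¹ from hI ▸ Set.mem_insert_of_mem _ hr).1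
  have hconj : ∀ u ∈ S.UU (Φ.Inv w⁻¹), S.n (Φ.simple i) 1 * u * (S.n (Φ.simple i) 1)⁻¹ ∈
      S.UU (Φ.s i '' Φ.Inv w⁻¹) := fun u hu =>
    hA.conj_mem_UU (fun s hs => Set.mem_image_of_mem _ hs) hu
  rw [T, Tw, Tw, Finset.sum_mul_sum, ← Finset.sum_product']
  refine Finset.sum_bij
    (fun y _ => S.x (Φ.simple i) y.1 * (S.n (Φ.simple i) 1 * y.2 * (S.n (Φ.simple i) 1)⁻¹))
    ?_ ?_ ?_ ?_
  · rintro ⟨t, u⟩ hy
    simp only [Finset.mem_product, Finset.mem_filter, Finset.mem_univ, true_and] at hy ⊢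
    rw [hI]
    exact mul_mem (S.x_mem_UU (Set.mem_insert _ _) t)
      (S.UU_mono (Set.subset_insert _ _) (hconj u hy))
  · rintro ⟨t, u⟩ hy ⟨t', u'⟩ hy' e
    simp only [Finset.mem_product, Finset.mem_filter, Finset.mem_univ, true_and] at hy hy' e
    have h1 : S.x (Φ.simple i) (-t' + t) ∈ S.UU (Φ.s i '' Φ.Inv w⁻¹) := by
      have : S.x (Φ.simple i) (-t' + t) = (S.n (Φ.simple i) 1 * u' * (S.n (Φ.simple i) 1)⁻¹) *
          (S.n (Φ.simple i) 1 * u * (S.n (Φ.simple i) 1)⁻¹)⁻¹ := by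
        rw [S.x_add, S.x_neg, inv_mul_eq_iff_eq_mul, ← mul_assoc, ← e, mul_inv_cancel_right]
      rw [this]
      exact mul_mem (hconj _ hy') (inv_mem (hconj _ hy))
    have h2 := hS.eq_zero_of_mem_UU hc hpos (Φ.pos_simple i) (Φ.simple_notMem_image_Inv _ i) h1
    have h3 : t = t' := by linear_combination h2
    subst h3
    simpa using e
  · intro g hg
    simp only [Finset.mem_filter, Finset.mem_univ, true_and] at hg
    obtain ⟨c, y, hy, rfl⟩ := S.exists_x_mul (Φ.closed_Inv (inv_mem (mul_mem (Φ.s_mem_W i) hw)))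
      (fun _ h => h.1) (Φ.simple i) hg
    refine ⟨(c, (S.n (Φ.simple i) 1)⁻¹ * y * S.n (Φ.simple i) 1), ?_, by simp [mul_assoc]⟩
    simp only [Finset.mem_product, Finset.mem_filter, Finset.mem_univ, true_and]
    have := (hA.inv (Φ.s_mem_W i)).conj_mem_UU (Ψ' := Φ.Inv w⁻¹) (fun s hs => ?_) hy
    · rwa [inv_inv] at this
    · rw [hI] at hs
      obtain ⟨r, hr, rfl⟩ := (Set.mem_insert_iff.1 hs.1).resolve_left hs.2
      simpa using hr
  · rintro ⟨t, u⟩ _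
    rw [← map_mul]
    congr 1; group

theorem T_mul_Tw' (hS : S.Nondeg) {w : Equiv.Perm ι} (hw : w ∈ Φ.W) {i : κ}
    (hp : Φ.Neg (w⁻¹ (Φ.simple i))) (n : G) :
    Tw S ρ w n = T S ρ i * Tw S ρ (Φ.s i * w) ((S.n (Φ.simple i) 1)⁻¹ * n) := by
  rw [T_mul_Tw hS (mul_mem (Φ.s_mem_W i) hw), ← mul_assoc, Φ.s_mul_self, one_mul,
    mul_inv_cancel_left]
  rw [Φ.s_mul_inv_apply_simple hw, Φ.pos_neg_iff]
  exact hp

omit [Fintype F] [Fintype G] [Finite ι] in
theorem acts_inv_mul {n : G} {i : κ} {w : Equiv.Perm ι} (hw : w ∈ Φ.W) (h : S.Acts n w) :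
    S.Acts ((S.n (Φ.simple i) 1)⁻¹ * n) (Φ.s i * w) := by
  have := ((S.acts_n_simple i (one_ne_zero (α := F))).inv (Φ.s_mem_W i)).mul h hw
  rwa [Φ.s_inv] at this

theorem IsB.Tw (hS : S.Nondeg) {v : V} (hv : IsB S ρ v) {w : Equiv.Perm ι} (hw : w ∈ Φ.W) :
    ∀ n ∈ S.N, S.Acts n w → IsB S ρ (Tw S ρ w n v) := by
  refine Φ.W_induction_left (p := fun w => ∀ n ∈ S.N, S.Acts n w → IsB S ρ (CR.Tw S ρ w n v))
    ?_ ?_ hw
  · intro n hn ha
    rw [Tw_one]
    exact hv.rho_H (hS.mem_H_of_acts_one hn ha)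
  · intro w hw i hp ih n hn ha
    have h1 := acts_inv_mul (i := i) (mul_mem (Φ.s_mem_W i) hw) ha
    rw [← mul_assoc, Φ.s_mul_self, one_mul] at h1
    have h2 := T_mul_Tw (ρ := ρ) hS hw hp ((S.n (Φ.simple i) 1)⁻¹ * n)
    rw [mul_inv_cancel_left] at h2
    rw [← h2, Module.End.mul_apply]
    exact (ih _ (mul_mem (inv_mem (S.n_one_mem_N _)) hn) h1).T i

omit [Fintype F] [Fintype G] [Finite ι] in
theorem IsB.exists_char (h3 : Stein.R3 S) {m : V} (hm : IsB S ρ m) (h0 : m ≠ 0) (i : κ) :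
    ∃ ψ : Fˣ →* kˣ, ∀ t : Fˣ, ρ (S.h (Φ.simple i) t) m = (ψ t : k) • m := by
  choose f hf using fun t : Fˣ => hm.2 _ (S.h_mem_H (Φ.simple i) t.ne_zero)
  refine ⟨MonoidHom.toHomUnits ⟨⟨f, ?_⟩, fun s t => ?_⟩, hf⟩
  · apply smul_left_injective k h0
    simp only
    rw [← hf, Units.val_one, S.h_one, map_one, one_smul]; rfl
  · apply smul_left_injective k h0
    simp only
    rw [← hf, Units.val_mul, ← h3 _ _ _ s.ne_zero t.ne_zero, rho_mul, hf, map_smul, hf, smul_smul,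
      mul_comm]

/-- from a `B`-eigenvector to a weight vector -/
theorem IsB.exists_isWt (hS : S.Nondeg) (h3 : Stein.R3 S) (hq : (Fintype.card F : k) = 0) {v : V}
    (hv : IsB S ρ v) (h0 : v ≠ 0) : ∃ ω m, m ≠ 0 ∧ IsWt S ρ ω m := by
  classical
  have := Fintype.ofFinite ι
  obtain ⟨w, hw, hmax⟩ := Finset.exists_max_image
    (Finset.univ.filter fun w => w ∈ Φ.W ∧ ∃ n ∈ S.N, S.Acts n w ∧ CR.Tw S ρ w n v ≠ 0) Φ.len
    ⟨1, Finset.mem_filter.2 ⟨Finset.mem_univ _, one_mem _, 1, one_mem _, S.acts_one, by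
      rwa [Tw_one, map_one]⟩⟩
  obtain ⟨-, hw, n, hn, ha, hm0⟩ := Finset.mem_filter.1 hw
  have hm := hv.Tw hS hw n hn ha
  choose ψ hψ using hm.exists_char h3 hm0
  refine ⟨fun i => if Φ.Neg (w⁻¹ (Φ.simple i)) ∧ ψ i = 1 then none else some (ψ i), _, hm0,
    hm.1, fun i t => ?_, fun i => ?_⟩
  · rw [hψ]
    split_ifs with h
    · rw [h.2]; rfl
    · rfl
  · rcases Φ.pos_or_neg (w⁻¹ (Φ.simple i)) with hp | hp
    · rw [if_neg fun h => Φ.not_neg_of_pos hp h.1, ← Module.End.mul_apply, T_mul_Tw hS hw hp]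
      rw [show cc (some (ψ i)) = (0 : k) from rfl, zero_smul]
      by_contra hne
      have := hmax (Φ.s i * w) (Finset.mem_filter.2 ⟨Finset.mem_univ _,
        mul_mem (Φ.s_mem_W i) hw, _, mul_mem (S.n_one_mem_N _) hn,
        (S.acts_n_simple i one_ne_zero).mul ha hw, hne⟩)
      rw [Φ.len_s_mul_of_pos hw hp] at this
      omega
    · have h1 := hψ i
      have h2 := hv.Tw hS (mul_mem (Φ.s_mem_W i) hw) _ (mul_mem (inv_mem (S.n_one_mem_N _)) hn)
        (acts_inv_mul (i := i) hw ha)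
      rw [T_mul_Tw' hS hw hp, Module.End.mul_apply] at h1 ⊢
      rw [T_T hq h2 i (ψ i) h1]
      by_cases h : ψ i = 1
      · rw [if_pos h, if_pos ⟨hp, h⟩]; rfl
      · rw [if_neg h, if_neg fun h' => h h'.2]; rfl

end CfsgLib.CR
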