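import Mathlib
import Cfsg.Agent.Lib.CR.Hecke
import Cfsg.Agent.Lib.ModRep.Brauer
import Cfsg.Agent.Lib.St.Unip
import Cfsg.Agent.Lib.HH.Weights
import Cfsg.Agent.Lib.Perm.PermModule

/-!
# Curtis–Richen theory, part 2: irreducible modules and their weights

An irreducible module in the defining characteristic has a weight vector, its weight is unique
(`weight_unique`) and determines the annihilator (`annihilator_le`); a projective irreducible module has
the Steinberg weight (`weight_eq_none`).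
-/

set_option autoImplicit false

namespace CfsgLib.CR

open CfsgLib.RGD CfsgLib.ModRep

variable {ι κ : Type} [Fintype κ] [DecidableEq κ] {Φ : RootSys ι κ} {F : Type*} [Field F]
  {G : Type*} [Group G] {S : StSys Φ F G} {k : Type*} [Field k] {V : Type*} [AddCommGroup V]
  [Module k V] {ρ : Representation k G V} [Fintype F] [Finite ι]

theorem card_cast_eq_zero (F k : Type*) [Field F] [Fintype F] [Field k] (p : ℕ) [hp : Fact p.Prime]
    [CharP F p] [CharP k p] : (Fintype.card F : k) = 0 := by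
  obtain ⟨n, hn, h⟩ := St.exists_card_eq_pow F p
  rw [← Nat.card_eq_fintype_card, h, Nat.cast_pow, CharP.cast_eq_zero k p, zero_pow hn.ne']

variable (ρ) in
theorem exists_isB [Finite G] [IsAlgClosed k] [FiniteDimensional k V] [Nontrivial V] (hS : S.Nondeg)
    (h3 : Stein.R3 S) (p : ℕ) [Fact p.Prime] [CharP F p] [CharP k p] :
    ∃ v : V, v ≠ 0 ∧ IsB S ρ v := by
  obtain ⟨v, -, hv0, hv⟩ := Perm.exists_fixed_of_isPGroup (St.isPGroup_U hS p)
    (ρ.comp S.U.subtype) ⊤ (fun _ _ _ => trivial) top_ne_bot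
  let M : Submodule k V :=
    { carrier := {v | ∀ u ∈ S.U, ρ u v = v}
      add_mem' := fun ha hb u hu => by rw [map_add, ha u hu, hb u hu]
      zero_mem' := fun u _ => map_zero _
      smul_mem' := fun c x hx u hu => by rw [map_smul, hx u hu] }
  obtain ⟨w, hw, hw0, h⟩ := HH.exists_common_eigenvector (ρ '' (S.H : Set G)) (by
    rintro _ ⟨a, ha, rfl⟩ _ ⟨b, hb, rfl⟩
    rw [← map_mul, h3.comm ha hb, map_mul]) M
    ((Submodule.ne_bot_iff _).2 ⟨v, fun u hu => hv ⟨u, hu⟩, hv0⟩) (by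
    rintro _ ⟨a, ha, rfl⟩ x hx u hu
    conv_rhs => rw [← hx _ (S.H_inv_conj_mem_UU ha hu)]
    rw [← rho_mul, ← rho_mul]
    congr 2; group)
  exact ⟨w, hw0, hw, fun a ha => h _ ⟨a, ha, rfl⟩⟩

variable (ρ) in
theorem exists_isWt [Finite G] [IsAlgClosed k] [FiniteDimensional k V] [Nontrivial V]
    (hS : S.Nondeg) (h3 : Stein.R3 S) (p : ℕ) [Fact p.Prime] [CharP F p] [CharP k p] :
    ∃ ω m, m ≠ 0 ∧ IsWt S ρ ω m := by
  have := Fintype.ofFinite G
  obtain ⟨v, hv0, hv⟩ := exists_isB ρ hS h3 p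
  exact hv.exists_isWt hS h3 (card_cast_eq_zero F k p) hv0

/-- the `G`-span of a weight vector is its `U⁻`-span -/
theorem IsWt.mem_span (hS : S.Nondeg) (htop : S.grp = ⊤) {ω : κ → Option (Fˣ →* kˣ)} {m : V}
    (hm : IsWt S ρ ω m) (g : G) :
    ρ g m ∈ Submodule.span k (Set.range fun v : S.V => ρ v m) := by
  classical
  set L := Submodule.span k (Set.range fun v : S.V => ρ v m)
  have hL : ∀ v ∈ S.V, ∀ x ∈ L, ρ v x ∈ L := by
    intro v hv x hx
    refine (Submodule.span_le (p := L.comap (ρ v))).2 ?_ hx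
    rintro _ ⟨u, rfl⟩
    exact Submodule.subset_span ⟨⟨v * u, mul_mem hv u.2⟩, rho_mul ρ _ _ _⟩
  have hmL : m ∈ L := Submodule.subset_span ⟨1, by simp⟩
  have hN : ∀ w ∈ Φ.W, ∀ n ∈ S.N, S.Acts n w → ρ n m ∈ L := by
    intro w hw
    refine Φ.W_induction_right (p := fun w => ∀ n ∈ S.N, S.Acts n w → ρ n m ∈ L) ?_ ?_ hw
    · intro n hn ha
      obtain ⟨c, hc⟩ := hm.isB.2 n (hS.mem_H_of_acts_one hn ha)
      rw [hc]
      exact L.smul_mem c hmL
    · intro v hv i hp ih n hn ha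
      have ha' : S.Acts (n * (S.n (Φ.simple i) 1)⁻¹) v := by
        have := ha.mul ((S.acts_n_simple i (one_ne_zero (α := F))).inv (Φ.s_mem_W i))
          (inv_mem (Φ.s_mem_W i))
        rwa [mul_inv_cancel_right] at this
      have h1 := ih _ (mul_mem hn (inv_mem (S.n_one_mem_N _))) ha'
      obtain ⟨n', hn'⟩ : ∃ n', n' = n * (S.n (Φ.simple i) 1)⁻¹ := ⟨_, rfl⟩
      rw [← hn'] at ha' h1
      have h2 := hm.hecke i
      rw [T_apply, ← Finset.add_sum_erase _ _ (Finset.mem_univ (0 : F)), S.x_zero, one_mul,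
        ← eq_sub_iff_add_eq] at h2
      have h3 : n = n' * S.n (Φ.simple i) 1 := by rw [hn', inv_mul_cancel_right]
      rw [h3, rho_mul, h2, map_sub, map_smul, map_sum]
      refine sub_mem (L.smul_mem _ h1) (L.sum_mem fun t ht => ?_)
      have ht0 : t ≠ 0 := Finset.ne_of_mem_erase ht
      have h4 := S.x_neg_root_eq (Φ.simple i) (inv_ne_zero ht0)
      rw [inv_inv, S.n_eq] at h4
      obtain ⟨c, hc⟩ := hm.isB.2 _ (inv_mem (S.N_inv_conj_mem_H (S.n_one_mem_N (Φ.simple i))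
        (S.h_mem_H (Φ.simple i) (neg_ne_zero.2 ht0))))
      obtain ⟨l, -, hl⟩ := ha'.exists_conj_x (Φ.neg (Φ.simple i))
      have h5 : S.x (Φ.simple i) t * S.n (Φ.simple i) 1 = S.x (Φ.neg (Φ.simple i)) t⁻¹ *
          (S.x (Φ.simple i) t)⁻¹ * ((S.n (Φ.simple i) 1)⁻¹ * S.h (Φ.simple i) (-t) *
            S.n (Φ.simple i) 1)⁻¹ := by
        rw [h4]; group
      rw [h5, rho_mul, hc, map_smul, map_smul, rho_mul,
        hm.fix _ (inv_mem (S.x_mem_U (Φ.pos_simple i) t)), ← rho_mul,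
        show n' * S.x (Φ.neg (Φ.simple i)) t⁻¹ = n' * S.x (Φ.neg (Φ.simple i)) t⁻¹ * n'⁻¹ * n' by
          group, hl, rho_mul]
      refine L.smul_mem _ (hL _ (S.x_mem_V ?_ _) _ h1)
      rw [Φ.apply_neg hv, Φ.neg_neg_iff]
      exact hp
  obtain ⟨n₀, hn₀, w₀, hw₀, ha₀, hneg, -⟩ := S.exists_n0
  obtain ⟨u, hu, n, hn, w, hw, ha, u', hu', e⟩ :=
    hS.exists_bruhat (g := n₀⁻¹ * g) (htop ▸ Subgroup.mem_top _)
  have : g = n₀ * u * n₀⁻¹ * (n₀ * n) * u' := by
    rw [inv_mul_eq_iff_eq_mul] at e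
    rw [e]; group
  rw [this, rho_mul, hm.fix _ (S.UU_le_U (fun _ h => h.1) hu'), rho_mul]
  exact hL _ (ha₀.conj_mem_UU (Ψ' := {r | Φ.Neg r}) hneg hu) _
    (hN _ (mul_mem hw₀ hw) _ (mul_mem hn₀ hn) (ha₀.mul ha hw))

omit [Fintype F] [Finite ι] in
theorem eq_zero_of_irr (hirr : Irr ρ) {φ : Module.Dual k V} {x : V} (hx : x ≠ 0)
    (h : ∀ g, φ (ρ g x) = 0) : φ = 0 := by
  rw [← LinearMap.ker_eq_top, eq_top_iff, ← hirr x hx, Submodule.span_le]
  rintro _ ⟨g, rfl⟩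
  exact h g

/-- a `U⁻`-invariant functional which is injective on the fixed points of `U` -/
theorem exists_functional [Finite G] [IsAlgClosed k] [FiniteDimensional k V] [Nontrivial V]
    (hS : S.Nondeg) (htop : S.grp = ⊤) (h3 : Stein.R3 S) (p : ℕ) [Fact p.Prime] [CharP F p]
    [CharP k p] (hirr : Irr ρ) : ∃ φ : Module.Dual k V, (∀ v ∈ S.V, ∀ x, φ (ρ v x) = φ x) ∧
      ∀ m, (∀ u ∈ S.U, ρ u m = m) → φ m = 0 → m = 0 := by
  obtain ⟨ω, ψ, hψ0, hψ⟩ := exists_isWt ρ.dual hS h3 p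
  obtain ⟨n₀, hn₀, w₀, hw₀, ha₀, -, hpos, -, hpos'⟩ := S.exists_n0
  have hd : ∀ g (χ : Module.Dual k V) x, ρ.dual g χ x = χ (ρ g⁻¹ x) := fun _ _ _ => rfl
  refine ⟨ρ.dual n₀ ψ, fun v hv x => ?_, fun m hm h0 => ?_⟩
  · have h1 := (ha₀.inv hw₀).conj_mem_UU (Ψ' := {r | Φ.Pos r}) hpos' (inv_mem hv)
    conv_rhs => rw [← hψ.fix _ h1]
    rw [hd, hd, hd, ← rho_mul, ← rho_mul]
    congr 3; group
  · by_contra hm0
    refine hψ0 (eq_zero_of_irr hirr hm0 fun g => ?_)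
    have h1 := (Submodule.span_le (p := LinearMap.ker (Module.Dual.eval k V (ρ n₀⁻¹ m)))).2 ?_
      (hψ.mem_span hS htop (n₀⁻¹ * g⁻¹))
    · have h2 : ψ (ρ (n₀⁻¹ * g⁻¹)⁻¹ (ρ n₀⁻¹ m)) = 0 := h1
      rwa [← rho_mul, mul_inv_rev, inv_inv, inv_inv, mul_inv_cancel_right] at h2
    · rintro _ ⟨v, rfl⟩
      change ψ (ρ (v : G)⁻¹ (ρ n₀⁻¹ m)) = 0
      have h2 := hm _ (ha₀.conj_mem_UU (Ψ' := {r | Φ.Pos r}) hpos (inv_mem v.2))
      rw [← h0, hd]
      conv_rhs => rw [← h2]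
      rw [← rho_mul, ← rho_mul]
      congr 3; group

omit [Fintype F] [Finite ι] in
theorem eq_of_chi_cc {o o' : Option (Fˣ →* kˣ)} (h1 : chi o = chi o') (h2 : cc o = cc o') :
    o = o' := by
  cases o <;> cases o'
  · rfl
  · simp [cc] at h2
  · simp [cc] at h2
  · exact congrArg some h1

theorem weight_unique [Finite G] [IsAlgClosed k] [FiniteDimensional k V]
    (hS : S.Nondeg) (htop : S.grp = ⊤) (h3 : Stein.R3 S) (p : ℕ) [Fact p.Prime] [CharP F p]
    [CharP k p] (hirr : Irr ρ) {ω ω' : κ → Option (Fˣ →* kˣ)} {m m' : V} (h0 : m ≠ 0) (h0' : m' ≠ 0)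
    (hm : IsWt S ρ ω m) (hm' : IsWt S ρ ω' m') : ω = ω' := by
  have : Nontrivial V := ⟨⟨m, 0, h0⟩⟩
  obtain ⟨φ, -, hφ⟩ := exists_functional hS htop h3 p hirr
  have h1 : φ m ≠ 0 := fun h => h0 (hφ m hm.fix h)
  have h2 : m' = (φ m' / φ m) • m := by
    rw [← sub_eq_zero]
    refine hφ _ (fun u hu => by rw [map_sub, map_smul, hm.fix u hu, hm'.fix u hu]) ?_
    rw [map_sub, map_smul, smul_eq_mul, div_mul_cancel₀ _ h1, sub_self]
  funext i
  refine eq_of_chi_cc (MonoidHom.ext fun t => Units.ext ?_) ?_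
  · apply smul_left_injective k h0'
    simp only
    rw [← hm'.tor, h2, map_smul, hm.tor, smul_comm]
  · apply smul_left_injective k h0'
    simp only
    rw [← hm'.hecke, h2, map_smul, hm.hecke, smul_comm]

/-- irreducible modules with the same weight have the same annihilator -/
theorem annihilator_le [Finite G] [IsAlgClosed k] [FiniteDimensional k V]
    {V' : Type*} [AddCommGroup V'] [Module k V'] [FiniteDimensional k V'] {ρ' : Representation k G V'}
    (hS : S.Nondeg) (htop : S.grp = ⊤) (h3 : Stein.R3 S) (p : ℕ) [Fact p.Prime] [CharP F p]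
    [CharP k p] (hirr : Irr ρ) (hirr' : Irr ρ') {ω : κ → Option (Fˣ →* kˣ)} {m : V} {m' : V'}
    (h0 : m ≠ 0) (h0' : m' ≠ 0) (hm : IsWt S ρ ω m) (hm' : IsWt S ρ' ω m') (a : MonoidAlgebra k G)
    (ha : ρ.asAlgebraHom a = 0) : ρ'.asAlgebraHom a = 0 := by
  have : Nontrivial V := ⟨⟨m, 0, h0⟩⟩
  have : Nontrivial V' := ⟨⟨m', 0, h0'⟩⟩
  obtain ⟨φ, hφV, hφ⟩ := exists_functional hS htop h3 p hirr
  obtain ⟨φ', hφV', hφ'⟩ := exists_functional hS htop h3 p hirr'
  have h1 : φ m ≠ 0 := fun h => h0 (hφ m hm.fix h)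
  have h1' : φ' m' ≠ 0 := fun h => h0' (hφ' m' hm'.fix h)
  have hp : ∀ g x y, (ρ.prod ρ') g (x, y) = (ρ g x, ρ' g y) := fun _ _ _ => rfl
  have hw : IsWt S (ρ.prod ρ') ω (m, m') := by
    refine ⟨fun u hu => by rw [hp, hm.fix u hu, hm'.fix u hu],
      fun i t => by rw [hp, hm.tor, hm'.tor]; rfl, fun i => ?_⟩
    rw [T_apply, Prod.smul_mk, ← hm.hecke, ← hm'.hecke, T_apply, T_apply]
    exact Prod.ext (by rw [Prod.fst_sum]; rfl) (by rw [Prod.snd_sum]; rfl)
  have hg : ∀ g, φ' m' * φ (ρ g m) = φ m * φ' (ρ' g m') := by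
    intro g
    have h2 := (Submodule.span_le (p := LinearMap.ker
      (φ' m' • φ ∘ₗ LinearMap.fst k V V' - φ m • φ' ∘ₗ LinearMap.snd k V V'))).2 ?_
      (hw.mem_span hS htop g)
    · simpa [hp, sub_eq_zero] using h2
    · rintro _ ⟨v, rfl⟩
      simp [hp, hφV _ v.2, hφV' _ v.2, mul_comm]
  have hb : ∀ b : MonoidAlgebra k G,
      φ' m' * φ (ρ.asAlgebraHom b m) = φ m * φ' (ρ'.asAlgebraHom b m') := by
    intro b
    induction b using MonoidAlgebra.induction_linear with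
    | zero => simp
    | add a b ha hb => simp only [map_add, LinearMap.add_apply, mul_add, ha, hb]
    | single g c =>
      simp only [Representation.asAlgebraHom_single, LinearMap.smul_apply, map_smul, smul_eq_mul]
      linear_combination c * hg g
  have h4 : ∀ g, ρ'.asAlgebraHom a (ρ' g m') = 0 := by
    intro g
    by_contra hne
    refine h1' ?_
    rw [eq_zero_of_irr hirr' (φ := φ') hne fun g' => ?_, LinearMap.zero_apply]
    have := hb (MonoidAlgebra.single g' 1 * a * MonoidAlgebra.single g 1)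
    simp only [map_mul, ha, Representation.asAlgebraHom_single_one, Module.End.mul_apply,
      LinearMap.zero_apply, map_zero, mul_zero] at this
    exact (mul_eq_zero.1 this.symm).resolve_left h1
  rw [← LinearMap.ker_eq_top, eq_top_iff, ← hirr' m' h0', Submodule.span_le]
  rintro _ ⟨g, rfl⟩
  exact h4 g

theorem IsWt.exists_Tw [Fintype G] (hS : S.Nondeg) {ω : κ → Option (Fˣ →* kˣ)} {m : V}
    (hm : IsWt S ρ ω m) {w : Equiv.Perm ι} (hw : w ∈ Φ.W) : ∀ n ∈ S.N, S.Acts n w →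
      ∃ c : k, Tw S ρ w n m = c • m ∧ (c ≠ 0 → w ∈ Φ.WJ {i | ω i = none}) := by
  refine Φ.W_induction_left (p := fun w => ∀ n ∈ S.N, S.Acts n w →
      ∃ c : k, Tw S ρ w n m = c • m ∧ (c ≠ 0 → w ∈ Φ.WJ {i | ω i = none})) ?_ ?_ hw
  · intro n hn ha
    obtain ⟨c, hc⟩ := hm.isB.2 n (hS.mem_H_of_acts_one hn ha)
    exact ⟨c, by rw [Tw_one, hc], fun _ => one_mem _⟩
  · intro w hw i hp ih n hn ha
    have h1 := acts_inv_mul (i := i) (mul_mem (Φ.s_mem_W i) hw) ha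
    rw [← mul_assoc, Φ.s_mul_self, one_mul] at h1
    have h2 := T_mul_Tw (ρ := ρ) hS hw hp ((S.n (Φ.simple i) 1)⁻¹ * n)
    rw [mul_inv_cancel_left] at h2
    obtain ⟨c, hc, hc'⟩ := ih _ (mul_mem (inv_mem (S.n_one_mem_N _)) hn) h1
    refine ⟨c * cc (ω i), by rw [← h2, Module.End.mul_apply, hc, map_smul, hm.hecke, smul_smul],
      fun h => mul_mem (Φ.s_mem_WJ ?_) (hc' (left_ne_zero_of_mul h))⟩
    have := right_ne_zero_of_mul h
    change ω i = none
    cases hω : ω i with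
    | none => rfl
    | some ψ => rw [hω] at this; exact absurd rfl this

omit [Fintype F] [Finite ι] in
theorem sum_eq_sum_cosets [Fintype G] (U : Subgroup G) [Fintype U] [Fintype (G ⧸ U)] {M : Type*}
    [AddCommMonoid M] (f : G → M) : ∑ g, f g = ∑ q : G ⧸ U, ∑ u : U, f (u * (q.out)⁻¹) := by
  rw [← Finset.sum_product', Finset.univ_product_univ]
  symm
  refine Fintype.sum_bijective (fun y : (G ⧸ U) × U => (y.2 : G) * (y.1.out)⁻¹) ⟨?_, ?_⟩ _ _
    fun _ => rfl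
  · rintro ⟨q, u⟩ ⟨q', u'⟩ e
    simp only at e
    have h1 : q = q' := by
      rw [← q.out_eq, ← q'.out_eq]
      refine QuotientGroup.eq.2 ?_
      rw [← eq_inv_mul_iff_mul_eq] at e
      rw [e, ← mul_assoc, inv_mul_cancel_right]
      exact mul_mem (inv_mem u.2) u'.2
    subst h1
    exact Prod.ext rfl (Subtype.ext (mul_right_cancel e))
  · intro g
    refine ⟨((g⁻¹ : G), ⟨g * ((g⁻¹ : G) : G ⧸ U).out, ?_⟩), by simp⟩
    have := QuotientGroup.eq.1 (((g⁻¹ : G) : G ⧸ U).out_eq).symm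
    rwa [inv_inv] at this

/-- a projective irreducible module has the Steinberg weight -/
theorem weight_eq_none [Fintype G] (hS : S.Nondeg) (htop : S.grp = ⊤) (hirr : Irr ρ)
    {ω : κ → Option (Fˣ →* kˣ)} {m : V} (h0 : m ≠ 0) (hm : IsWt S ρ ω m) (A : Module.End k V)
    (hA : ∑ g, ρ g (A (ρ g⁻¹ m)) = m) : ω = fun _ => none := by
  classical
  obtain ⟨n₀, hn₀, w₀, hw₀, ha₀, hneg, hpos, hneg', -⟩ := S.exists_n0
  obtain ⟨c, hc, hc'⟩ := hm.exists_Tw hS hw₀ n₀ hn₀ ha₀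
  have hc0 : c ≠ 0 := by
    rintro rfl
    let Û : Module.End k V := ∑ u : S.U, ρ u
    have h1 : ∀ u ∈ S.U, ∀ x, Û (ρ u x) = Û x := by
      intro u hu x
      simp only [Û, LinearMap.sum_apply]
      refine Fintype.sum_equiv (Equiv.mulRight ⟨u, hu⟩) _ _ fun y => ?_
      rw [← rho_mul]; rfl
    have h2 : Û (ρ n₀ m) = 0 := by
      rw [zero_smul, Tw, LinearMap.sum_apply] at hc
      have hI : Φ.Inv w₀⁻¹ = {r | Φ.Pos r} := Set.ext fun r => ⟨fun h => h.1, fun h => ⟨h, hneg' r h⟩⟩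
      rw [← hc, LinearMap.sum_apply, hI]
      simp only [rho_mul]
      exact (Finset.sum_subtype _ (fun x => by simp [StSys.U]) fun u => ρ u (ρ n₀ m)).symm
    have h3 : Û = 0 := by
      rw [← LinearMap.ker_eq_top, eq_top_iff, ← hirr m h0, Submodule.span_le]
      rintro _ ⟨g, rfl⟩
      have h4 := (Submodule.span_le (p := LinearMap.ker (Û * ρ n₀))).2 ?_
        (hm.mem_span hS htop (n₀⁻¹ * g))
      · have h5 : Û (ρ n₀ (ρ (n₀⁻¹ * g) m)) = 0 := h4
        rwa [← rho_mul, mul_inv_cancel_left] at h5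
      · rintro _ ⟨v, rfl⟩
        change Û (ρ n₀ (ρ v m)) = 0
        rw [← h2, ← h1 _ (ha₀.conj_mem_UU (Ψ' := {r | Φ.Pos r}) hpos v.2) (ρ n₀ m), ← rho_mul,
          ← rho_mul, inv_mul_cancel_right]
    refine h0 ?_
    rw [← hA, sum_eq_sum_cosets S.U]
    refine Finset.sum_eq_zero fun q _ => ?_
    have h4 := LinearMap.congr_fun h3 (ρ (q.out)⁻¹ (A (ρ q.out m)))
    rw [LinearMap.sum_apply] at h4
    refine Eq.trans (Finset.sum_congr rfl fun u _ => ?_) h4
    rw [mul_inv_rev, inv_inv, rho_mul, rho_mul, hm.fix _ (inv_mem u.2)]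
  funext i
  exact Φ.inSub_simple_iff.1 (Φ.Inv_subset_of_mem_WJ (hc' hc0) ⟨Φ.pos_simple i, hneg _ (Φ.pos_simple i)⟩)

end CfsgLib.CR
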