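import Mathlib
import Cfsg.Agent.Lib.CR.Irr
import Cfsg.Agent.Lib.Block.Span
import Cfsg.Agent.Lib.Block.Local2
import Cfsg.Agent.Lib.Block.ConjSum
import Cfsg.Agent.Lib.ClSys.StApp

/-!
# Curtis–Richen theory, part 3: there is exactly one block of defect zero

In the defining characteristic a finite group with a system of root elements has at most one block of
defect zero (`block_eq_of_defect_zero`), so the Steinberg character is the only irreducible character of
defect zero (`eq_st_of_defect_zero`).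
-/

set_option autoImplicit false

namespace CfsgLib.CR

open Cfsg CfsgLib.RGD CfsgLib.ModRep CfsgLib.Block MonoidAlgebra

variable {ι κ : Type} [Fintype κ] [DecidableEq κ] {Φ : RootSys ι κ} {F : Type*} [Field F]
  {G : Type*} [Group G] {S : StSys Φ F G} {k : Type*} [Field k]

/-- a central element supported on elements with `p'`-centralizers is a trace from the trivial
subgroup -/
theorem exists_eq_sum_conj [Fintype G] (p : ℕ) [CharP k p] {e : k[G]} (he : e ∈ Z k G)
    (hs : ∀ g, e.coeff g ≠ 0 → ¬ p ∣ Nat.card (Subgroup.centralizer ({g} : Set G))) :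
    ∃ a : k[G], e = ∑ g, single g 1 * a * single g⁻¹ 1 := by
  classical
  refine Z_induction (P := fun e => ∃ a : k[G], e = ∑ g, single g 1 * a * single g⁻¹ 1)
    ⟨0, by simp⟩ ?_ he ?_
  · rintro _ _ ⟨a, rfl⟩ ⟨b, rfl⟩
    exact ⟨a + b, by simp only [mul_add, add_mul, Finset.sum_add_distrib]⟩
  · intro g hg
    have h0 : (Nat.card (Subgroup.centralizer ({g} : Set G)) : k) ≠ 0 := fun h =>
      hs g hg ((CharP.cast_eq_zero_iff k p _).1 h)
    refine ⟨single g (e.coeff g / Nat.card (Subgroup.centralizer ({g} : Set G))), ?_⟩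
    simp only [single_mul_single, one_mul, mul_one]
    rw [sum_conj_eq_card_centralizer_smul
      (fun y => (single y (e.coeff g / Nat.card (Subgroup.centralizer ({g} : Set G))) : k[G])) g]
    refine ga_ext fun x => ?_
    rw [coeff_smul', coeff_classSum, ← Nat.cast_smul_eq_nsmul k, coeff_smul', coeff_sum']
    simp only [coeff_single', Finset.sum_ite_eq', Finset.mem_filter, Finset.mem_univ, true_and]
    split_ifs
    · rw [mul_div_cancel₀ _ h0, mul_one]
    · simp

variable [Fintype F] [Finite ι]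

/-- two central idempotents of defect zero are not orthogonal -/
theorem mul_ne_zero_of_defect_zero [Finite G] [IsAlgClosed k] (hS : S.Nondeg) (htop : S.grp = ⊤)
    (h3 : Stein.R3 S) (p : ℕ) [Fact p.Prime] [CharP F p] [CharP k p] {e e' : k[G]}
    (he : e ∈ Z k G) (he' : e' ∈ Z k G) (hi : IsIdempotentElem e) (hi' : IsIdempotentElem e')
    (h0 : e ≠ 0) (h0' : e' ≠ 0)
    (hs : ∀ g, e.coeff g ≠ 0 → ¬ p ∣ Nat.card (Subgroup.centralizer ({g} : Set G)))
    (hs' : ∀ g, e'.coeff g ≠ 0 → ¬ p ∣ Nat.card (Subgroup.centralizer ({g} : Set G))) :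
    e * e' ≠ 0 := by
  have := Fintype.ofFinite G
  obtain ⟨W⟩ := nonempty_wedd k k[G]
  have key : ∀ e : k[G], e ∈ Z k G → IsIdempotentElem e → e ≠ 0 →
      (∀ g, e.coeff g ≠ 0 → ¬ p ∣ Nat.card (Subgroup.centralizer ({g} : Set G))) →
      ∃ (i : Fin W.n) (m : Fin (W.d i) → k), (W.rep i).asAlgebraHom (1 - e) = 0 ∧ m ≠ 0 ∧
        IsWt S (W.rep i) (fun _ => none) m := by
    intro e he hi h0 hs
    obtain ⟨i, v, hv0, hv⟩ := W.exists_vector (Representation.ofMulAction k G G) h0
    have h1 := hv (1 - e) (by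
      rw [Representation.asAlgebraHom_ofMulAction_smul_eq_mul, hi.one_sub_mul_self])
    have h2 : (W.rep i).asAlgebraHom (1 - e) = 0 := by
      rw [← LinearMap.ker_eq_top, eq_top_iff, ← W.irr_rep i v hv0, Submodule.span_le]
      rintro _ ⟨g, rfl⟩
      change (W.rep i).asAlgebraHom (1 - e) (W.rep i g v) = 0
      rw [← Representation.asAlgebraHom_single_one, ← Module.End.mul_apply, ← map_mul,
        Z_comm (sub_mem (one_mem _) he), map_mul, Module.End.mul_apply, h1, map_zero]
    have := W.nontrivial i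
    obtain ⟨ω, m, hm0, hm⟩ := exists_isWt (W.rep i) hS h3 p
    obtain ⟨a, ha⟩ := exists_eq_sum_conj p he hs
    refine ⟨i, m, h2, hm0, ?_⟩
    rw [← weight_eq_none hS htop (W.irr_rep i) hm0 hm ((W.rep i).asAlgebraHom a) ?_]
    · exact hm
    · have h4 := LinearMap.congr_fun h2 m
      rw [map_sub, map_one, LinearMap.sub_apply, LinearMap.zero_apply, sub_eq_zero, ha, map_sum,
        LinearMap.sum_apply] at h4
      refine Eq.trans (Finset.sum_congr rfl fun g _ => ?_) h4.symm
      simp only [map_mul, Representation.asAlgebraHom_single_one, Module.End.mul_apply]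
  obtain ⟨i, m, h1, hm0, hm⟩ := key e he hi h0 hs
  obtain ⟨j, m', h1', hm0', hm'⟩ := key e' he' hi' h0' hs'
  have h2 := annihilator_le hS htop h3 p (W.irr_rep i) (W.irr_rep j) hm0 hm0' hm hm' _ h1
  rw [map_sub, map_one, sub_eq_zero] at h1' h2
  intro h
  have h4 := congrArg (fun a => (W.rep j).asAlgebraHom a m') h
  simp only [map_mul, ← h1', ← h2, map_zero, mul_one, Module.End.one_apply,
    LinearMap.zero_apply] at h4
  exact hm0' h4

/-- at most one block of defect zero -/
theorem block_eq_of_defect_zero [Finite G] (hS : S.Nondeg) (htop : S.grp = ⊤) (h3 : Stein.R3 S)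
    {p : ℕ} [CharP F p] {M : Ideal AlgInt} (hM : IsPModular p M) {B B' : Set (IrrCharacter G)}
    (hB : IsPBlock M B) (hB' : IsPBlock M B') (hd : IsDefectGroup p M B ⊥)
    (hd' : IsDefectGroup p M B' ⊥) : B = B' := by
  have : Fact p.Prime := ⟨hM.1⟩
  have key : ∀ B : Set (IrrCharacter G), IsPBlock M B → IsDefectGroup p M B ⊥ → ∀ g,
      (eB hM B).coeff g ≠ 0 → ¬ p ∣ Nat.card (Subgroup.centralizer ({g} : Set G)) := by
    intro B hB hd g hg hp
    obtain ⟨x, hx⟩ := exists_prime_orderOf_dvd_card' p hp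
    have hx' : orderOf (x : G) = p := by rw [Subgroup.orderOf_coe, hx]
    obtain ⟨y, hy⟩ := le_cS_of_not_li_blockCoeff hM hB hd
      (fun h => hg ((coeff_eB_eq_zero_iff hM hB g).2 h))
      (isPGroup_zpowers_of_pElt hM.1 (x := (x : G)) ⟨1, by rw [hx', pow_one]⟩)
      ((Subgroup.zpowers_le).2 x.2)
    have h1 := hy (Subgroup.mem_zpowers _)
    rw [BrPair.cS, Subgroup.map_bot, Subgroup.mem_bot] at h1
    rw [h1, orderOf_one] at hx'
    exact hM.1.ne_one hx'.symm
  by_contra hne
  exact mul_ne_zero_of_defect_zero hS htop h3 p (eB_mem_Z hM B) (eB_mem_Z hM B')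
    (isIdempotentElem_eB hM hB) (isIdempotentElem_eB hM hB') (eB_ne_zero hM hB) (eB_ne_zero hM hB')
    (key B hB hd) (key B' hB' hd') (eB_mul_of_ne hM hB hB' hne)

theorem factorization_charDegree_st [Finite G] (hS : S.Nondeg) (htop : S.grp = ⊤)
    (h3 : Stein.R3 S) (p : ℕ) [Fact p.Prime] [CharP F p] :
    (charDegree (St.st S)).factorization p = (Nat.card G).factorization p := by
  obtain ⟨P⟩ : Nonempty (Sylow p G) := inferInstance
  have h1 := ClSys.card_sylow_eq hS htop h3 p P
  rw [P.card_eq_multiplicity] at h1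
  rw [charDegree_eq_of_eq (n := p ^ (Nat.card G).factorization p)
    (by rw [St.st_one hS htop, h1, Nat.cast_pow]), Nat.Prime.factorization_pow Fact.out,
    Finsupp.single_eq_same]

/-- the Steinberg character is the only irreducible character of defect zero -/
theorem eq_st_of_defect_zero [Finite G] (hS : S.Nondeg) (htop : S.grp = ⊤) (h3 : Stein.R3 S)
    (p : ℕ) [hp : Fact p.Prime] [CharP F p] {χ : G → ℂ} (hχ : IsIrrCharacter G χ)
    (hd : (charDegree χ).factorization p = (Nat.card G).factorization p) : χ = St.st S := by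
  obtain ⟨M, hM⟩ := exists_isPModular' hp.out
  let χ' : IrrCharacter G := ⟨χ, hχ⟩
  let ψ : IrrCharacter G := ⟨St.st S, St.isIrr_st hS htop⟩
  have hψ := factorization_charDegree_st hS htop h3 p
  have key : ∀ φ : IrrCharacter G,
      (charDegree (φ : G → ℂ)).factorization p = (Nat.card G).factorization p →
      IsDefectGroup p M (blockOf M (φ : G → ℂ)) ⊥ := fun φ h =>
    (isDefectGroup_bot_iff hM (isPBlock_blockOf φ)).2
      ((blockDefect_eq_zero_iff hM (isPBlock_blockOf φ) (mem_blockOf_self hM φ)).2 h)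
  have h1 := block_eq_of_defect_zero hS htop h3 hM (isPBlock_blockOf χ') (isPBlock_blockOf ψ)
    (key χ' hd) (key ψ hψ)
  rw [(blockOf_eq_singleton_iff hM χ').2 hd, (blockOf_eq_singleton_iff hM ψ).2 hψ] at h1
  exact congrArg Subtype.val (Set.singleton_injective h1)

/-- the same with a divisibility hypothesis -/
theorem eq_st_of_dvd [Finite G] (hS : S.Nondeg) (htop : S.grp = ⊤) (h3 : Stein.R3 S)
    (p : ℕ) [hp : Fact p.Prime] [CharP F p] {χ : G → ℂ} (hχ : IsIrrCharacter G χ)
    (hdeg : ∃ d : ℕ, χ 1 = (d : ℂ) ∧ p ^ (Nat.card G).factorization p ∣ d) : χ = St.st S := by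
  obtain ⟨d, hd, hdvd⟩ := hdeg
  refine eq_st_of_defect_zero hS htop h3 p hχ (le_antisymm (factorization_charDegree_le hχ) ?_)
  rw [← charDegree_eq_of_eq hd] at hdvd
  exact (hp.out.pow_dvd_iff_le_factorization (charDegree_ne_zero hχ)).1 hdvd

end CfsgLib.CR
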